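import Cfsg.Agent.Lib.FieldFour

/-!
# S3510-B, box B34: the group `GU_3(2)` as a list (helper388)
-/

set_option autoImplicit false

namespace Cfsg.Agent.H388.RC34

open Cfsg.Agent.Lib.FieldFour Cfsg.Agent.Lib.FieldFour.F4

/-- 3 by 3 matrices -/
structure M where
  (a b c d e f g h k : F4)

/-- boolean equality -/
def eqF : F4 → F4 → Bool
  | o, o => true
  | i, i => true
  | w, w => true
  | v, v => true
  | _, _ => false

theorem eqF_iff (x y : F4) : eqF x y = true ↔ x = y := by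
  cases x <;> cases y <;> simp [eqF]

def eqM (x y : M) : Bool :=
  eqF x.a y.a && eqF x.b y.b && eqF x.c y.c && eqF x.d y.d && eqF x.e y.e && eqF x.f y.f && eqF x.g y.g &&
    eqF x.h y.h && eqF x.k y.k

theorem eqM_iff (x y : M) : eqM x y = true ↔ x = y := by
  obtain ⟨a, b, c, d, e, f, g, h, k⟩ := x
  obtain ⟨a', b', c', d', e', f', g', h', k'⟩ := y
  simp only [eqM, Bool.and_eq_true, eqF_iff, M.mk.injEq, and_assoc]

/-- `a ↦ a ^ 2` -/
def fr : F4 → F4
  | o => o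
  | i => i
  | w => v
  | v => w

/-- `x₁ y₁ + x₂ y₂ + x₃ y₃` -/
def dot (x₁ x₂ x₃ y₁ y₂ y₃ : F4) : F4 := add (add (mul x₁ y₁) (mul x₂ y₂)) (mul x₃ y₃)

/-- hermitian product -/
def herm (x₁ x₂ x₃ y₁ y₂ y₃ : F4) : F4 := dot x₁ x₂ x₃ (fr y₁) (fr y₂) (fr y₃)

def mm (x y : M) : M :=
  ⟨dot x.a x.b x.c y.a y.d y.g, dot x.a x.b x.c y.b y.e y.h, dot x.a x.b x.c y.c y.f y.k,
   dot x.d x.e x.f y.a y.d y.g, dot x.d x.e x.f y.b y.e y.h, dot x.d x.e x.f y.c y.f y.k,
   dot x.g x.h x.k y.a y.d y.g, dot x.g x.h x.k y.b y.e y.h, dot x.g x.h x.k y.c y.f y.k⟩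

def st (x : M) : M := ⟨fr x.a, fr x.d, fr x.g, fr x.b, fr x.e, fr x.h, fr x.c, fr x.f, fr x.k⟩

def sm (s : F4) (x : M) : M :=
  ⟨mul s x.a, mul s x.b, mul s x.c, mul s x.d, mul s x.e, mul s x.f, mul s x.g, mul s x.h, mul s x.k⟩

def one : M := ⟨i, o, o, o, i, o, o, o, i⟩

def dt (x : M) : F4 :=
  add (add (mul x.a (add (mul x.e x.k) (mul x.f x.h))) (mul x.b (add (mul x.d x.k) (mul x.f x.g))))
    (mul x.c (add (mul x.d x.h) (mul x.e x.g)))

def scalEq (x y : M) : Bool := eqM x y || eqM x (sm w y) || eqM x (sm v y)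

def isScal (x : M) : Bool := scalEq x one

def sq (x : M) : M := mm x x

def p12 (x : M) : M := mm (sq (sq (sq x))) (sq (sq x))

def l4 : List F4 := [o, i, w, v]

def vecs : List (F4 × F4 × F4) := l4.flatMap fun x => l4.flatMap fun y => l4.map fun z => (x, y, z)

/-- unit vectors -/
def units : List (F4 × F4 × F4) := vecs.filter fun u => eqF (herm u.1 u.2.1 u.2.2 u.1 u.2.1 u.2.2) i

theorem mem_units (x y z : F4) (h : herm x y z x y z = i) : (x, y, z) ∈ units := by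
  rw [units, List.mem_filter, eqF_iff]
  refine ⟨?_, h⟩
  revert x y z
  decide

def orth (u v : F4 × F4 × F4) : Bool := eqF (herm u.1 u.2.1 u.2.2 v.1 v.2.1 v.2.2) o

/-- all unitary matrices -/
def allU (P : M → Bool) : Bool :=
  units.all fun u => units.all fun v => !(orth u v) || units.all fun w =>
    !(orth u w) || !(orth v w) || P ⟨u.1, u.2.1, u.2.2, v.1, v.2.1, v.2.2, w.1, w.2.1, w.2.2⟩

theorem of_allU {P : M → Bool} (hP : allU P = true) (x : M) (hx : mm x (st x) = one) : P x = true := by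
  obtain ⟨a, b, c, d, e, f, g, h, k⟩ := x
  have h11 : herm a b c a b c = i := congrArg M.a hx
  have h12 : herm a b c d e f = o := congrArg M.b hx
  have h13 : herm a b c g h k = o := congrArg M.c hx
  have h22 : herm d e f d e f = i := congrArg M.e hx
  have h23 : herm d e f g h k = o := congrArg M.f hx
  have h33 : herm g h k g h k = i := congrArg M.k hx
  have h1 := List.all_eq_true.1 (List.all_eq_true.1 hP _ (mem_units a b c h11)) _ (mem_units d e f h22)
  have o12 : orth (a, b, c) (d, e, f) = true := (eqF_iff _ _).2 h12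
  have o13 : orth (a, b, c) (g, h, k) = true := (eqF_iff _ _).2 h13
  have o23 : orth (d, e, f) (g, h, k) = true := (eqF_iff _ _).2 h23
  rw [o12, Bool.not_true, Bool.false_or] at h1
  have h2 := List.all_eq_true.1 h1 _ (mem_units g h k h33)
  rw [o13, o23, Bool.not_true, Bool.false_or, Bool.false_or] at h2
  exact h2

/-- `(123)` -/
def P0 : M := ⟨o, o, i, i, o, o, o, i, o⟩

/-- `(12)` -/
def Y0 : M := ⟨o, i, o, i, o, o, o, o, i⟩

def c0 : M := ⟨i, i, i, i, w, v, i, v, w⟩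

def gP : List M := [⟨o, o, i, o, i, o, i, o, o⟩, ⟨o, o, i, o, i, o, w, o, o⟩, ⟨o, o, i, o, i, o, v, o, o⟩,
  ⟨o, o, i, i, o, o, o, i, o⟩, ⟨o, o, i, i, o, o, o, w, o⟩, ⟨o, o, i, i, o, o, o, v, o⟩,
  ⟨i, i, i, i, w, v, i, v, w⟩, ⟨i, i, i, i, v, w, i, w, v⟩]

def gY : List M := [⟨o, i, o, i, o, o, o, o, i⟩, ⟨o, i, o, o, o, v, w, o, o⟩, ⟨o, i, o, w, o, o, o, o, v⟩,
  ⟨o, i, o, v, o, o, o, o, w⟩, ⟨o, i, o, o, o, w, v, o, o⟩, ⟨o, i, o, o, o, i, i, o, o⟩,
  ⟨o, o, i, o, v, o, w, o, o⟩, ⟨o, o, i, o, w, o, v, o, o⟩, ⟨o, o, i, o, i, o, i, o, o⟩]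

theorem gP_unit : (gP.all fun g => eqM (mm g (st g)) one) = true := by decide

theorem gY_unit : (gY.all fun g => eqM (mm g (st g)) one) = true := by decide

theorem chk12 : allU (fun x => isScal (p12 x)) = true := by decide +kernel

theorem chkP : allU (fun x => !(eqF (dt x) i) || !(isScal (mm x (sq x))) || isScal x ||
    gP.any fun g => scalEq (mm g x) (mm P0 g)) = true := by decide +kernel

/-- `[x, c₀] ^ 2` -/
def cm (x : M) : M := sq (mm (mm x c0) (mm (st x) (st c0)))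

theorem chkY : allU (fun x => eqF (dt x) i || gY.any fun g => scalEq (mm (cm x) g) (mm g Y0)) = true := by
  decide +kernel

end Cfsg.Agent.H388.RC34
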