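import Cfsg.Agent.H384.RC.KRule
import Cfsg.Agent.H384.RC.Asm
import Cfsg.Agent.LieClassical.FieldTransfer
import Cfsg.Agent.LieClassical.SLGen
import Cfsg.Agent.H388.RC.Dat

/-!
# S3510-B, box B34: the unitary involution of `PSL_3(4)` (helper388)
-/

set_option autoImplicit false

open Matrix Cfsg
open Cfsg.Agent.H106.RC Cfsg.Agent.H999.PslGraph Cfsg.Agent.H384.RC
open Cfsg.Agent.ClassicalGeometry.AutPSL.Root
open Cfsg.Agent.ClassicalGeometry.AutPSL.Auto
open Cfsg.Agent.ClassicalGeometry.AutPSL.Main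
open Cfsg.Agent.Lib.FieldFour Cfsg.Agent.Lib.FieldFour.F4

namespace Cfsg.Agent.H388.RC34

section mat

/-- the Frobenius automorphism -/
def fr4 : F4 ≃+* F4 where
  toFun := fr
  invFun := fr
  left_inv := by decide
  right_inv := by decide
  map_mul' := by decide
  map_add' := by decide

theorem fr4_apply (a : F4) : fr4 a = fr a := rfl

theorem fr_fr (a : F4) : fr (fr a) = a := by cases a <;> rfl

/-- an automorphism of odd order is trivial -/
theorem auto_sq (τ : F4 ≃+* F4) : τ * τ = 1 := by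
  have h0 : τ o = o := map_zero τ
  have h1 : τ i = i := map_one τ
  have hinj := τ.injective
  have hw0 : τ w ≠ o := fun h => by
    have := hinj (h.trans h0.symm)
    cases this
  have hw1 : τ w ≠ i := fun h => by
    have := hinj (h.trans h1.symm)
    cases this
  have hv0 : τ v ≠ o := fun h => by
    have := hinj (h.trans h0.symm)
    cases this
  have hv1 : τ v ≠ i := fun h => by
    have := hinj (h.trans h1.symm)
    cases this
  have hwv : τ w ≠ τ v := fun h => by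
    have := hinj h
    cases this
  apply RingEquiv.ext
  intro a
  show τ (τ a) = a
  cases a with
  | o => rw [h0, h0]
  | i => rw [h1, h1]
  | w =>
    cases hw : τ w with
    | o => exact absurd hw hw0
    | i => exact absurd hw hw1
    | w => exact hw
    | v =>
      cases hv : τ v with
      | o => exact absurd hv hv0
      | i => exact absurd hv hv1
      | w => rfl
      | v => exact absurd (hw.trans hv.symm) hwv
  | v =>
    cases hv : τ v with
    | o => exact absurd hv hv0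
    | i => exact absurd hv hv1
    | v => exact hv
    | w =>
      cases hw : τ w with
      | o => exact absurd hw hw0
      | i => exact absurd hw hw1
      | v => rfl
      | w => exact absurd (hw.trans hv.symm) hwv

theorem sigma_eq {σ : F4 ≃+* F4} (hσ : ∀ a, σ a = a ^ 2) : σ = fr4 := by
  apply RingEquiv.ext
  intro a
  rw [hσ, fr4_apply, pow_two]
  cases a <;> rfl

/-- the matrix -/
def tm (x : M) : Matrix (Fin 3) (Fin 3) F4 := !![x.a, x.b, x.c; x.d, x.e, x.f; x.g, x.h, x.k]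

def ofM (A : Matrix (Fin 3) (Fin 3) F4) : M :=
  ⟨A 0 0, A 0 1, A 0 2, A 1 0, A 1 1, A 1 2, A 2 0, A 2 1, A 2 2⟩

theorem tm_ofM (A : Matrix (Fin 3) (Fin 3) F4) : tm (ofM A) = A := by
  ext r s
  fin_cases r <;> fin_cases s <;> rfl

theorem ofM_tm (x : M) : ofM (tm x) = x := rfl

theorem tm_mm (x y : M) : tm (mm x y) = tm x * tm y := by
  ext r s
  rw [Matrix.mul_apply, Fin.sum_univ_three]
  fin_cases r <;> fin_cases s <;> rfl

theorem tm_one : tm one = 1 := by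
  ext r s
  fin_cases r <;> fin_cases s <;> rfl

theorem tm_sm (s : F4) (x : M) : tm (sm s x) = s • tm x := by
  ext r t
  fin_cases r <;> fin_cases t <;> rfl

theorem tm_st (x : M) : tm (st x) = ((tm x).map fr4)ᵀ := by
  ext r t
  fin_cases r <;> fin_cases t <;> rfl

theorem tm_dt (x : M) : (tm x).det = dt x := by
  rw [Matrix.det_fin_three]
  obtain ⟨a, b, c, d, e, f, g, h, k⟩ := x
  have h2 : ∀ z : F4, -z = z := fun z => rfl
  show a * e * k - a * f * h - b * d * k + b * f * g + c * d * h - c * e * g =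
    (a * (e * k + f * h) + b * (d * k + f * g)) + c * (d * h + e * g)
  simp only [sub_eq_add_neg, h2]
  ring

theorem ofM_mul (A B : Matrix (Fin 3) (Fin 3) F4) : ofM (A * B) = mm (ofM A) (ofM B) := by
  rw [← ofM_tm (mm _ _), tm_mm, tm_ofM, tm_ofM]

theorem scal_of {x y : M} (h : scalEq x y = true) : ∃ s : F4, s ≠ 0 ∧ tm x = s • tm y := by
  rw [scalEq, Bool.or_eq_true, Bool.or_eq_true, eqM_iff, eqM_iff, eqM_iff] at h
  rcases h with (h | h) | h
  · exact ⟨1, one_ne_zero, by rw [h, one_smul]⟩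
  · exact ⟨w, by decide, by rw [h, tm_sm]⟩
  · exact ⟨v, by decide, by rw [h, tm_sm]⟩

theorem scal_to {x y : M} {s : F4} (hs : s ≠ 0) (h : tm x = s • tm y) : scalEq x y = true := by
  rw [scalEq, Bool.or_eq_true, Bool.or_eq_true, eqM_iff, eqM_iff, eqM_iff]
  rw [← tm_sm] at h
  have h' : x = sm s y := by rw [← ofM_tm x, h, ofM_tm]
  cases s with
  | o => exact absurd rfl hs
  | i => exact Or.inl (Or.inl h')
  | w => exact Or.inl (Or.inr h')
  | v => exact Or.inr h'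

end mat


section grp

abbrev S4 := Matrix.ProjectiveSpecialLinearGroup (Fin 3) F4

theorem simpleS : IsSimpleGroup S4 :=
  Cfsg.Agent.LieClassical.SLGen.psl_isSimpleGroup (by decide)

/-- the unitary involution -/
noncomputable def T : MulAut S4 := lift (fld fr4) * It

theorem fr4_sq : fr4 * fr4 = 1 := auto_sq fr4

theorem T_sq : T * T = 1 := by
  rw [T]
  calc (lift (fld fr4) * It * (lift (fld fr4) * It) : MulAut S4) =
      lift (fld fr4) * (It * lift (fld fr4)) * It := by simp only [mul_assoc]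
    _ = lift (fld fr4 * fld fr4) * (It * It) := by rw [← fld_It, map_mul]; simp only [mul_assoc]
    _ = 1 := by rw [← map_mul fld, fr4_sq, map_one, map_one, It_mul_It, mul_one]

theorem T_inv : T⁻¹ = T := inv_eq_of_mul_eq_one_left T_sq

theorem T_Cj (A : GL (Fin 3) F4) : T * Cj A = Cj (mg fr4 (ct A)) * T := by
  rw [T, mul_assoc, It_mul_Cj, ← mul_assoc, fld_Cj, mul_assoc]

theorem T_conj (A : GL (Fin 3) F4) : T * Cj A * T⁻¹ = Cj (mg fr4 (ct A)) := by
  rw [T_Cj, mul_inv_cancel_right]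

/-- unitary -/
def Un (A : GL (Fin 3) F4) : Prop := mm (ofM A) (st (ofM A)) = one

theorem coe_mg_ct_inv (A : GL (Fin 3) F4) :
    ((mg fr4 (ct A⁻¹) : GL (Fin 3) F4) : Matrix (Fin 3) (Fin 3) F4) =
      ((A : Matrix (Fin 3) (Fin 3) F4).map fr4)ᵀ := by
  rw [coe_mg, coe_ct, inv_inv]
  rfl

theorem map_fr_fr (A : Matrix (Fin 3) (Fin 3) F4) : (A.map fr4).map fr4 = A := by
  ext r s
  exact fr_fr _

theorem un_iff (A : GL (Fin 3) F4) : Un A ↔ mg fr4 (ct A) = A := by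
  have h1 : Un A ↔ A * mg fr4 (ct A⁻¹) = 1 := by
    have e : tm (mm (ofM A) (st (ofM A))) = ((A * mg fr4 (ct A⁻¹) : GL (Fin 3) F4) :
        Matrix (Fin 3) (Fin 3) F4) := by
      rw [tm_mm, tm_st, tm_ofM, Units.val_mul, coe_mg_ct_inv]
    constructor
    · intro h
      apply Units.ext
      rw [← e, h, tm_one, Units.val_one]
    · intro h
      rw [h, Units.val_one, ← tm_one] at e
      have := congrArg ofM e
      rwa [ofM_tm, ofM_tm] at this
  rw [h1, ct_inv, map_inv, mul_inv_eq_one]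
  exact eq_comm

theorem un_comm {A : GL (Fin 3) F4} (h : Un A) : T * Cj A = Cj A * T := by
  rw [T_Cj, (un_iff A).1 h]

theorem herm_val (x y z : F4) : herm x y z x y z = o ∨ herm x y z x y z = i := by
  revert x y z
  decide

theorem comm_un {A : GL (Fin 3) F4} (h : T * Cj A = Cj A * T) : Un A := by
  rw [T_Cj] at h
  obtain ⟨c, hc, h1⟩ := Cj_eq_iff.1 (mul_right_cancel h)
  have h2 : ((A * mg fr4 (ct A⁻¹) : GL (Fin 3) F4) : Matrix (Fin 3) (Fin 3) F4) = c • 1 := by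
    calc ((A * mg fr4 (ct A⁻¹) : GL (Fin 3) F4) : Matrix (Fin 3) (Fin 3) F4) =
        (A : Matrix (Fin 3) (Fin 3) F4) *
          ((mg fr4 (ct A⁻¹) : GL (Fin 3) F4) : Matrix (Fin 3) (Fin 3) F4) := Units.val_mul _ _
      _ = (c • ((mg fr4 (ct A) : GL (Fin 3) F4) : Matrix (Fin 3) (Fin 3) F4)) *
          ((mg fr4 (ct A⁻¹) : GL (Fin 3) F4) : Matrix (Fin 3) (Fin 3) F4) := by
          exact congrArg (fun z => z * _) h1
      _ = c • ((mg fr4 (ct A) * mg fr4 (ct A⁻¹) : GL (Fin 3) F4) : Matrix (Fin 3) (Fin 3) F4) := by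
          rw [Matrix.smul_mul, Units.val_mul]
      _ = c • 1 := by rw [ct_inv, map_inv, mul_inv_cancel, Units.val_one]
  have e : mm (ofM A) (st (ofM A)) = ofM (c • 1) := by
    rw [← h2, ← ofM_tm (mm _ _), tm_mm, tm_st, tm_ofM, Units.val_mul, coe_mg_ct_inv]
  have h3 : herm (A 0 0) (A 0 1) (A 0 2) (A 0 0) (A 0 1) (A 0 2) = c := by
    have := congrArg M.a e
    change herm (A 0 0) (A 0 1) (A 0 2) (A 0 0) (A 0 1) (A 0 2) = c * 1 at this
    rwa [mul_one] at this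
  have h4 : c = i := by
    rcases herm_val (A 0 0) (A 0 1) (A 0 2) with h | h
    · rw [h] at h3
      exact absurd h3.symm hc
    · rw [← h3, h]
  rw [Un, e, h4]
  rfl

theorem exists_un {x : MulAut S4} {r : ℕ} (hr : r.Prime) (hr2 : r ≠ 2) (hx : x ^ r = 1)
    (hT : T * x = x * T) : ∃ A : GL (Fin 3) F4, Un A ∧ x = Cj A := by
  have hodd := hr.odd_of_ne_two hr2
  obtain ⟨A, τ, h⟩ := exists_sem_of_odd (by decide) x hodd hx
  have hp : ∀ n : ℕ, ∃ B : GL (Fin 3) F4, x ^ n = Sem B (τ ^ n) := by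
    intro n
    induction n with
    | zero => exact ⟨1, by rw [pow_zero, pow_zero]; exact ((Sem_one 1).trans (map_one _)).symm⟩
    | succ n ih =>
      obtain ⟨B, hB⟩ := ih
      exact ⟨B * mg (τ ^ n) A, by rw [pow_succ, hB, h, Sem_mul, pow_succ]⟩
  obtain ⟨B, hB⟩ := hp r
  rw [hx] at hB
  have hτr : τ ^ r = 1 := by
    have h1 : lift (cj B * fld (τ ^ r)) = lift (fld (1 : F4 ≃+* F4)) := by
      rw [map_mul, map_one, map_one]
      exact hB.symm
    exact (injective_aux h1).2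
  have hτ : τ = 1 := by
    obtain ⟨k, hk⟩ := hodd
    rw [hk, pow_add, pow_mul, pow_two, auto_sq, one_pow, one_mul, pow_one] at hτr
    exact hτr
  subst hτ
  have h2 : x = Cj A := h.trans (Sem_one A)
  exact ⟨A, comm_un (by rw [← h2]; exact hT), h2⟩

theorem coe_p12 (A : GL (Fin 3) F4) :
    ((A ^ 12 : GL (Fin 3) F4) : Matrix (Fin 3) (Fin 3) F4) = tm (p12 (ofM A)) := by
  rw [p12, sq, sq, sq, tm_mm, tm_mm, tm_mm, tm_mm, tm_ofM, Units.val_pow_eq_pow_val]
  noncomm_ring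

theorem un_pow {A : GL (Fin 3) F4} (h : Un A) : Cj A ^ 12 = 1 := by
  rw [← map_pow, Cj_eq_one_iff, coe_p12]
  obtain ⟨s, -, hs⟩ := scal_of (of_allU chk12 _ h)
  exact ⟨s, by rw [hs, tm_one]⟩

theorem eq_three {x : MulAut S4} {r : ℕ} (hr : r.Prime) (hr2 : r ≠ 2) (hx : x ^ r = 1) (hx1 : x ≠ 1)
    (h12 : x ^ 12 = 1) : r = 3 := by
  have h1 : orderOf x = r := by
    have := Fact.mk hr
    exact orderOf_eq_prime hx hx1
  have h2 : r ∣ 12 := by rw [← h1]; exact orderOf_dvd_of_pow_eq_one h12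
  have h3 : r ∣ 2 ^ 2 * 3 := h2
  rcases (Nat.Prime.dvd_mul hr).1 h3 with h4 | h4
  · exact absurd ((Nat.prime_dvd_prime_iff_eq hr Nat.prime_two).1 (hr.dvd_of_dvd_pow h4)) hr2
  · exact (Nat.prime_dvd_prime_iff_eq hr Nat.prime_three).1 h4

/-- unitary matrices as group elements -/
def mkU (x : M) (h : mm x (st x) = one) : GL (Fin 3) F4 where
  val := tm x
  inv := tm (st x)
  val_inv := by rw [← tm_mm, h, tm_one]
  inv_val := by rw [mul_eq_one_comm, ← tm_mm, h, tm_one]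

theorem un_mkU (x : M) (h : mm x (st x) = one) : Un (mkU x h) := h

theorem coe_mkU (x : M) (h : mm x (st x) = one) :
    (mkU x h : Matrix (Fin 3) (Fin 3) F4) = tm x := rfl

def q1 : M := ⟨i, o, i, o, i, i, o, o, i⟩

def gq : GL (Fin 3) F4 where
  val := tm q1
  inv := tm q1
  val_inv := by rw [← tm_mm, ← tm_one]; rfl
  inv_val := by rw [← tm_mm, ← tm_one]; rfl

theorem hY0 : mm Y0 (st Y0) = one := rfl

theorem hP0 : mm P0 (st P0) = one := rfl

theorem hc0 : mm c0 (st c0) = one := rfl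

noncomputable def y0 : MulAut S4 := Cj (mkU Y0 hY0)

theorem y0_mem : y0 ∈ inn S4 := Cj_mem_inn _ (by rw [coe_mkU, tm_dt]; rfl)

theorem y0_ne : y0 ≠ 1 := by
  rw [y0, Ne, Cj_eq_one_iff]
  rintro ⟨c, hc⟩
  have h1 := congrFun (congrFun hc 0) 1
  have h2 : (i : F4) = c * 0 := h1
  rw [mul_zero] at h2
  cases h2

/-- the group of the root rule -/
noncomputable def Zy (y : MulAut S4) : Subgroup (MulAut S4) :=
  Subgroup.closure {z | ∃ q ∈ inn S4, q * y = y * q ∧ z = q * T * q⁻¹ * T⁻¹}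

theorem Zy_conj {y a : MulAut S4} (ha : T * a = a * T) (h : y ∈ Zy y) :
    a * y * a⁻¹ ∈ Zy (a * y * a⁻¹) := by
  have hle : Zy y ≤ (Zy (a * y * a⁻¹)).comap (MulAut.conj a).toMonoidHom := by
    rw [Zy, Subgroup.closure_le]
    rintro _ ⟨q, hq, hqy, rfl⟩
    show a * (q * T * q⁻¹ * T⁻¹) * a⁻¹ ∈ Zy (a * y * a⁻¹)
    apply Subgroup.subset_closure
    refine ⟨a * q * a⁻¹, inn_conj_mem hq a, ?_, ?_⟩
    · calc a * q * a⁻¹ * (a * y * a⁻¹) = a * (q * y) * a⁻¹ := by group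
        _ = a * (y * q) * a⁻¹ := by rw [hqy]
        _ = _ := by group
    · have h1 : a⁻¹ * T * a = T := by rw [mul_assoc, ha, inv_mul_cancel_left]
      have h2 : a⁻¹ * T⁻¹ = T⁻¹ * a⁻¹ := by
        rw [← _root_.mul_inv_rev, ← _root_.mul_inv_rev, ha]
      symm
      calc a * q * a⁻¹ * T * (a * q * a⁻¹)⁻¹ * T⁻¹ = a * q * (a⁻¹ * T * a) * q⁻¹ * (a⁻¹ * T⁻¹) := by
            group
        _ = _ := by rw [h1, h2]; group
  exact hle h

theorem y0_Zy : y0 ∈ Zy y0 := by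
  have h1 : Cj gq * T * (Cj gq)⁻¹ * T⁻¹ = Cj (gq * mg fr4 (ct gq⁻¹)) := by
    rw [map_mul, ← T_conj, map_inv]
    group
  have h2 : y0 = (Cj gq * T * (Cj gq)⁻¹ * T⁻¹) * (Cj gq * T * (Cj gq)⁻¹ * T⁻¹) := by
    rw [h1, ← map_mul, y0]
    congr 1
    apply Units.ext
    rw [Units.val_mul, Units.val_mul, coe_mg_ct_inv, coe_mkU]
    change tm Y0 = tm q1 * ((tm q1).map fr4)ᵀ * (tm q1 * ((tm q1).map fr4)ᵀ)
    rw [← tm_st, ← tm_mm, ← tm_mm]
    rfl
  have h3 : Cj gq * T * (Cj gq)⁻¹ * T⁻¹ ∈ Zy y0 := by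
    apply Subgroup.subset_closure
    refine ⟨Cj gq, Cj_mem_inn _ ?_, ?_, rfl⟩
    · change (tm q1).det = 1
      rw [tm_dt]
      rfl
    · rw [y0, ← map_mul, ← map_mul]
      congr 1
      apply Units.ext
      rw [Units.val_mul, Units.val_mul, coe_mkU]
      change tm q1 * tm Y0 = tm Y0 * tm q1
      rw [← tm_mm, ← tm_mm]
      rfl
  have h4 := Subgroup.mul_mem _ h3 h3
  rwa [← h2] at h4

theorem coe_inv_un {A : GL (Fin 3) F4} (hA : Un A) :
    ((A⁻¹ : GL (Fin 3) F4) : Matrix (Fin 3) (Fin 3) F4) = tm (st (ofM A)) := by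
  rw [tm_st, tm_ofM, ← coe_mg_ct_inv, ct_inv, map_inv, (un_iff A).1 hA]

theorem dt_eq (A : GL (Fin 3) F4) : (A : Matrix (Fin 3) (Fin 3) F4).det = dt (ofM A) := by
  rw [← tm_dt, tm_ofM]

theorem case_ii {κ : Type} {x : κ → MulAut S4} {H : Subgroup (MulAut S4)} (hcov : CovH T x H)
    (i₀ : κ) (hκ : ∀ i, i = i₀) {A : GL (Fin 3) F4} (hA : Un A) (hx : x i₀ = Cj A)
    (hd : dt (ofM A) ≠ i) : inn S4 ≤ H := by
  have h1 := of_allU chkY _ hA
  rw [Bool.or_eq_true, eqF_iff] at h1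
  obtain ⟨g, hg, h3⟩ := List.any_eq_true.1 (h1.resolve_left hd)
  have hgu : mm g (st g) = one := (eqM_iff _ _).1 (List.all_eq_true.1 gY_unit g hg)
  obtain ⟨s, hs, h4⟩ := scal_of h3
  have h5 : Cj (mkU g hgu * mkU Y0 hY0) =
      Cj ((A * mkU c0 hc0 * (A⁻¹ * (mkU c0 hc0)⁻¹)) * (A * mkU c0 hc0 * (A⁻¹ * (mkU c0 hc0)⁻¹)) *
        mkU g hgu) := by
    rw [Cj_eq_iff]
    refine ⟨s, hs, ?_⟩
    simp only [Units.val_mul, coe_mkU, coe_inv_un hA, coe_inv_un (un_mkU c0 hc0)]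
    rw [← tm_mm g Y0, ← h4, cm, sq, tm_mm, tm_mm, tm_mm, tm_mm, tm_mm, tm_ofM]
    rfl
  have hcT : T * Cj (mkU c0 hc0) = Cj (mkU c0 hc0) * T := un_comm (un_mkU _ _)
  have haT : T * Cj (mkU g hgu) = Cj (mkU g hgu) * T := un_comm (un_mkU _ _)
  have hci : Cj (mkU c0 hc0) ∈ inn S4 := Cj_mem_inn _ (by rw [coe_mkU, tm_dt]; rfl)
  have h6 : Cj (mkU g hgu) * y0 * (Cj (mkU g hgu))⁻¹ =
      (x i₀ * (Cj (mkU c0 hc0) * x i₀ * (Cj (mkU c0 hc0))⁻¹)⁻¹) *
      (x i₀ * (Cj (mkU c0 hc0) * x i₀ * (Cj (mkU c0 hc0))⁻¹)⁻¹) := by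
    rw [mul_inv_eq_iff_eq_mul, hx, y0, ← map_mul, h5]
    simp only [map_mul, map_inv, _root_.mul_inv_rev, inv_inv, mul_assoc]
  refine fam_one simpleS hcov i₀ hκ (Cj (mkU g hgu) * y0 * (Cj (mkU g hgu))⁻¹)
    (inn_conj_mem y0_mem _) ?_ ?_ (Zy_conj haT y0_Zy)
  · intro h
    apply y0_ne
    rwa [mul_inv_eq_one, mul_eq_left] at h
  · rw [h6]
    have h7 : x i₀ ∈ Subgroup.closure {z | ∃ c ∈ inn S4, c * T = T * c ∧ z = c * x i₀ * c⁻¹} := by
      apply Subgroup.subset_closure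
      exact ⟨1, Subgroup.one_mem _, by rw [one_mul, mul_one], by rw [one_mul, inv_one, mul_one]⟩
    have h8 : Cj (mkU c0 hc0) * x i₀ * (Cj (mkU c0 hc0))⁻¹ ∈
        Subgroup.closure {z | ∃ c ∈ inn S4, c * T = T * c ∧ z = c * x i₀ * c⁻¹} := by
      apply Subgroup.subset_closure
      exact ⟨_, hci, hcT.symm, rfl⟩
    have h9 := Subgroup.mul_mem _ h7 (Subgroup.inv_mem _ h8)
    exact Subgroup.mul_mem _ h9 h9

/-- the prime field -/
def ph : ZMod 2 →+* F4 where
  toFun a := if a = 0 then o else i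
  map_one' := rfl
  map_zero' := rfl
  map_mul' := by decide
  map_add' := by decide

theorem ph_inj : Function.Injective ph := by decide

theorem fr_ph (a : ZMod 2) : fr (ph a) = ph a := by
  revert a
  decide

abbrev K2 := Matrix.SpecialLinearGroup (Fin 3) (ZMod 2)

/-- the inclusion in `GL` -/
def gl (k : K2) : GL (Fin 3) F4 := Matrix.SpecialLinearGroup.toGL (Matrix.SpecialLinearGroup.map ph k)

theorem coe_gl (k : K2) : (gl k : Matrix (Fin 3) (Fin 3) F4) = (k : Matrix (Fin 3) (Fin 3) (ZMod 2)).map ph :=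
  rfl

theorem gl_mul (k l : K2) : gl (k * l) = gl k * gl l := by
  rw [gl, map_mul, map_mul]
  rfl

theorem gl_inv (k : K2) : gl k⁻¹ = (gl k)⁻¹ := by
  rw [gl, map_inv, map_inv]
  rfl

/-- `SL_3(2)` in `Aut S` -/
noncomputable def f0 : K2 →* MulAut S4 where
  toFun k := Cj (gl k)
  map_one' := by
    have : gl 1 = 1 := by rw [gl, map_one, map_one]
    rw [this, map_one]
  map_mul' k l := by rw [gl_mul, map_mul]

theorem f0_apply (k : K2) : f0 k = Cj (gl k) := rfl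

theorem f0_ker (k : K2) : f0 k = 1 ↔ k ∈ Subgroup.center K2 := by
  rw [f0_apply, Cj_eq_one_iff, coe_gl, Matrix.SpecialLinearGroup.mem_center_iff]
  constructor
  · rintro ⟨c, hc⟩
    have h0 : ∀ r s, ph (k r s) = c * (1 : Matrix (Fin 3) (Fin 3) F4) r s := fun r s =>
      congrFun (congrFun hc r) s
    have h1 : scalar (Fin 3) (k 0 0) = (k : Matrix (Fin 3) (Fin 3) (ZMod 2)) := by
      ext r s
      rw [scalar_apply, diagonal_apply]
      by_cases hrs : r = s
      · subst hrs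
        rw [if_pos rfl]
        apply ph_inj
        rw [h0, h0, one_apply_eq, one_apply_eq]
      · rw [if_neg hrs]
        apply ph_inj
        rw [h0, one_apply_ne hrs, mul_zero, map_zero]
    refine ⟨k 0 0, ?_, h1⟩
    have h2 := k.2
    rw [← h1, scalar_apply, det_diagonal, Finset.prod_const, Finset.card_univ] at h2
    exact h2
  · rintro ⟨r, -, hr⟩
    refine ⟨ph r, ?_⟩
    rw [← hr]
    ext a b
    rw [map_apply, scalar_apply, diagonal_apply, Matrix.smul_apply, one_apply, smul_eq_mul]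
    by_cases hab : a = b
    · rw [if_pos hab, if_pos hab, mul_one]
    · rw [if_neg hab, if_neg hab, mul_zero, map_zero]

theorem f0_T (k : K2) : T * f0 k * T⁻¹ = f0 (k⁻¹).transpose := by
  rw [f0_apply, T_conj, f0_apply]
  congr 1
  apply Units.ext
  rw [coe_mg, coe_ct, ← gl_inv, coe_gl, coe_gl]
  ext r s
  exact fr_ph _

theorem f0_inn (k : K2) : f0 k ∈ inn S4 :=
  Cj_mem_inn _ (Matrix.SpecialLinearGroup.map ph k).2

def pk : K2 := ⟨!![0, 0, 1; 1, 0, 0; 0, 1, 0], by decide⟩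

def uk : K2 := ⟨!![1, 1, 0; 0, 1, 0; 0, 0, 1], by decide⟩

def U0 : M := ⟨i, i, o, o, i, o, o, o, i⟩

theorem coe_pk : (gl pk : Matrix (Fin 3) (Fin 3) F4) = tm P0 := by
  rw [coe_gl]
  ext r s
  fin_cases r <;> fin_cases s <;> rfl

theorem coe_uk : (gl uk : Matrix (Fin 3) (Fin 3) F4) = tm U0 := by
  rw [coe_gl]
  ext r s
  fin_cases r <;> fin_cases s <;> rfl

theorem pk_uk : f0 pk * f0 uk ≠ f0 uk * f0 pk := by
  intro h
  rw [← map_mul, ← map_mul, f0_apply, f0_apply, Cj_eq_iff] at h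
  obtain ⟨c, hc, h⟩ := h
  rw [gl_mul, gl_mul, Units.val_mul, Units.val_mul, coe_pk, coe_uk, ← tm_mm, ← tm_mm] at h
  exact absurd (scal_to hc h) (by decide)

theorem T_uk : T * f0 uk ≠ f0 uk * T := by
  intro h
  have h1 := comm_un h
  rw [Un, coe_uk, ofM_tm] at h1
  have h2 := congrArg M.a h1
  exact absurd h2 (by decide)

theorem simpleK : IsSimpleGroup (K2 ⧸ Subgroup.center K2) :=
  Cfsg.Agent.LieClassical.SLGen.psl_isSimpleGroup (ι := Fin 3) (F := ZMod 2) (by decide)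

theorem noncommK : ¬ IsMulCommutative (K2 ⧸ Subgroup.center K2) := by
  intro h
  have h1 : (QuotientGroup.mk (pk * uk) : K2 ⧸ Subgroup.center K2) = QuotientGroup.mk (uk * pk) :=
    h.is_comm.comm (QuotientGroup.mk pk) (QuotientGroup.mk uk)
  rw [QuotientGroup.eq, ← f0_ker, map_mul, map_inv, inv_mul_eq_one, map_mul, map_mul] at h1
  exact pk_uk h1

theorem case_i (hRC : RC (Matrix.ProjectiveSpecialLinearGroup (Fin 3) (ZMod 2)))
    {κ : Type} [Finite κ] {x : κ → MulAut S4} {r : κ → ℕ} {H : Subgroup (MulAut S4)}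
    (hF : Fam T x r) (hcov : CovH T x H)
    (i₀ : κ) (hκ : ∀ i, i = i₀) {A : GL (Fin 3) F4} (hA : Un A) (hx : x i₀ = Cj A)
    (h3 : x i₀ ^ 3 = 1) (hd : dt (ofM A) = i) : inn S4 ≤ H := by
  have h1 := of_allU chkP _ hA
  have hdt : eqF (dt (ofM A)) i = true := (eqF_iff _ _).2 hd
  have hcube : isScal (mm (ofM A) (sq (ofM A))) = true := by
    rw [hx, ← map_pow, Cj_eq_one_iff] at h3
    obtain ⟨c, hc⟩ := h3
    refine scal_to (s := c) (ne_zero_of_coe_eq_smul hc) ?_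
    rw [tm_one, ← hc, sq, tm_mm, tm_mm, tm_ofM, Units.val_pow_eq_pow_val]
    noncomm_ring
  have hns : isScal (ofM A) = false := by
    rw [Bool.eq_false_iff]
    intro h
    obtain ⟨c, -, hc⟩ := scal_of h
    apply hF.ne1 i₀
    rw [hx, Cj_eq_one_iff]
    exact ⟨c, by rw [← tm_one, ← hc, tm_ofM]⟩
  rw [hdt, hcube, hns, Bool.not_true, Bool.false_or, Bool.false_or, Bool.false_or] at h1
  obtain ⟨g, hg, h3⟩ := List.any_eq_true.1 h1
  have hgu : mm g (st g) = one := (eqM_iff _ _).1 (List.all_eq_true.1 gP_unit g hg)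
  obtain ⟨s, hs, h4⟩ := scal_of h3
  have h5 : f0 pk * Cj (mkU g hgu) = Cj (mkU g hgu) * x i₀ := by
    rw [f0_apply, hx, ← map_mul, ← map_mul, Cj_eq_iff]
    refine ⟨s, hs, ?_⟩
    rw [Units.val_mul, Units.val_mul, coe_mkU, coe_pk, ← tm_mm, ← h4, tm_mm, tm_ofM]
  have hbT : T * Cj (mkU g hgu) = Cj (mkU g hgu) * T := un_comm (un_mkU _ _)
  generalize Cj (mkU g hgu) = b at h5 hbT
  have hxb : x i₀ = b⁻¹ * f0 pk * b := by rw [mul_assoc, h5, inv_mul_cancel_left]
  have hT' : T = b⁻¹ * T * b := by rw [mul_assoc, hbT, inv_mul_cancel_left]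
  have hf : ∀ k, ((MulAut.conj b⁻¹).toMonoidHom.comp f0) k = b⁻¹ * f0 k * b := by
    intro k
    show b⁻¹ * f0 k * b⁻¹⁻¹ = _
    rw [inv_inv]
  have hcomm : ∀ p q : MulAut S4, (b⁻¹ * p * b) * (b⁻¹ * q * b) = (b⁻¹ * q * b) * (b⁻¹ * p * b) →
      p * q = q * p := by
    intro p q h
    have e1 : (b⁻¹ * p * b) * (b⁻¹ * q * b) = b⁻¹ * (p * q) * b := by group
    have e2 : (b⁻¹ * q * b) * (b⁻¹ * p * b) = b⁻¹ * (q * p) * b := by group
    rw [e1, e2] at h
    exact mul_left_cancel (mul_right_cancel h)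
  refine fam_K_none simpleS hF T_sq hcov ((MulAut.conj b⁻¹).toMonoidHom.comp f0) ?_ simpleK
    noncommK hRC ?_ ?_ ?_ ?_ ?_
  · intro k
    rw [hf, ← f0_ker]
    constructor
    · intro h
      rwa [mul_assoc, inv_mul_eq_one, eq_comm, mul_eq_right] at h
    · intro h
      rw [h, mul_one, inv_mul_cancel]
  · intro k
    have := inn_conj_mem (f0_inn k) b⁻¹
    rwa [inv_inv, ← hf] at this
  · intro k
    refine ⟨(k⁻¹).transpose, ?_⟩
    rw [hf, hf, ← f0_T]
    have hT'' : b * T = T * b := hbT.symm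
    calc T * (b⁻¹ * f0 k * b) * T⁻¹ = (b⁻¹ * T * b) * (b⁻¹ * f0 k * b) * (b⁻¹ * T * b)⁻¹ := by
          rw [← hT']
      _ = _ := by group
  · intro j k
    rw [hκ j]
    refine ⟨pk * k * pk⁻¹, ?_⟩
    rw [hf, hf, map_mul, map_mul, map_inv, hxb]
    group
  · intro j h
    have h' := h uk
    rw [hκ j, hf, hxb] at h'
    exact pk_uk (hcomm _ _ h')
  · intro h
    have h' := h uk
    rw [hf] at h'
    rw [hT'] at h'
    exact T_uk (hcomm _ _ h')

theorem killed_T (hRC : RC (Matrix.ProjectiveSpecialLinearGroup (Fin 3) (ZMod 2))) : Killed T := by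
  rw [killed_iff]
  intro κ _ x r hF H hcov
  rcases isEmpty_or_nonempty κ with hκ | ⟨⟨i₀⟩⟩
  · refine fam_root simpleS T H y0 y0_mem y0_ne ?_ y0_Zy
    intro n hn
    rcases hcov.pt n hn with h | ⟨i, -⟩
    · exact Or.inr h
    · exact hκ.elim i
  · have hr3 : ∀ i, r i = 3 := by
      intro i
      obtain ⟨A, hA, hx⟩ := exists_un (hF.pr i) (hF.ne2 i) (hF.pow i) (hF.commt i)
      exact eq_three (hF.pr i) (hF.ne2 i) (hF.pow i) (hF.ne1 i) (by rw [hx]; exact un_pow hA)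
    have hκ : ∀ i, i = i₀ := fun i => hF.inj ((hr3 i).trans (hr3 i₀).symm)
    obtain ⟨A, hA, hx⟩ := exists_un (hF.pr i₀) (hF.ne2 i₀) (hF.pow i₀) (hF.commt i₀)
    have h3 : x i₀ ^ 3 = 1 := by
      have := hF.pow i₀
      rwa [hr3] at this
    by_cases hd : dt (ofM A) = i
    · exact case_i hRC hF hcov i₀ hκ hA hx h3 hd
    · exact case_ii hcov i₀ hκ hA hx hd

end grp

section transport

open Cfsg.Agent.LieClassical.FieldTransfer

theorem congr_T {F : Type} [Field F] (e : F4 ≃+* F) (σ : F ≃+* F) (hσ : ∀ a, σ a = a ^ 2) :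
    MulAut.congr (pslCongr (ι := Fin 3) e) T =
      (lift (fld σ) * It : MulAut (Matrix.ProjectiveSpecialLinearGroup (Fin 3) F)) := by
  apply MulEquiv.ext
  intro x
  obtain ⟨x, rfl⟩ := (pslCongr (ι := Fin 3) e).surjective x
  obtain ⟨x, rfl⟩ := pr_surjective x
  have h1 : MulAut.congr (pslCongr (ι := Fin 3) e) T (pslCongr e (pr x)) =
      pslCongr e (T (pr x)) := by
    simp [MulAut.congr]
  rw [h1]
  change pr (slCongr e (fld fr4 (itr x))) = pr (fld σ (itr (slCongr e x)))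
  congr 1
  apply Subtype.ext
  ext a b
  rw [coe_fld_apply, coe_itr, ← map_inv]
  change e (fr4 ((x⁻¹ : Matrix.SpecialLinearGroup (Fin 3) F4) b a)) =
    σ (e ((x⁻¹ : Matrix.SpecialLinearGroup (Fin 3) F4) b a))
  rw [hσ, ← map_pow]
  congr 1
  generalize ((x⁻¹ : Matrix.SpecialLinearGroup (Fin 3) F4) : Matrix (Fin 3) (Fin 3) F4) b a = z
  rw [fr4_apply, pow_two]
  cases z <;> rfl

/-- box B34 -/
theorem killed_34 {F : Type} [Field F] [Fintype F] (hF : Fintype.card F = 4) (σ : F ≃+* F)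
    (hσ : ∀ a, σ a = a ^ 2)
    (hRC : RC (Matrix.ProjectiveSpecialLinearGroup (Fin 3) (ZMod 2))) :
    Killed (lift (fld σ) * It : MulAut (Matrix.ProjectiveSpecialLinearGroup (Fin 3) F)) := by
  rw [← congr_T (equivOfCard hF).symm σ hσ]
  exact (killed_T hRC).congr _

end transport

end Cfsg.Agent.H388.RC34
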